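import Cfsg.Agent.H713.Two.OTwo
import Cfsg.Agent.H504.TwoExt
import Cfsg.Agent.S0294

/-!
# `Ω₈⁻(2)` : two characters with three zeros (helper713, for S4897)
-/

set_option autoImplicit false

namespace Cfsg.Agent.H713.Two.OTwo

open Module Subgroup QuadraticMap Cfsg
open Cfsg.Agent.LieClassical.OrthCore Cfsg.Agent.LieClassical.OrthTrans Cfsg.Agent.LieClassical.OrthForms
open Cfsg.Agent.H409.Cyc Cfsg.Agent.H504.ZeroTI Cfsg.Agent.H504.Zeros Cfsg.Agent.H504.TwoZ

theorem fac_of {p m : ℕ} (hp : p.Prime) (hm : ¬ p ∣ m) : (p ^ 1 * m).factorization p = 1 := by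
  rw [Nat.factorization_mul (by rw [pow_one]; exact hp.ne_zero) (by rintro rfl; exact hm (dvd_zero p)),
    Finsupp.add_apply, Nat.Prime.factorization_pow hp, Finsupp.single_eq_same,
    Nat.factorization_eq_zero_of_not_dvd hm]

theorem card_ominus_two {F : Type} [Field F] [Fintype F] (hF : Fintype.card F = 2) (a b : F)
    (hab : ∀ z₁ z₂ : F, z₁ ^ 2 + a * z₁ * z₂ + b * z₂ ^ 2 = 0 → z₁ = 0 ∧ z₂ = 0) :
    Nat.card (Cfsg.POmega F (Cfsg.quadFormMinus 3 F a b)) = 197406720 := by
  have hN := Cfsg.Agent.S0294.result hF 4 (by norm_num) a b hab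
  norm_num [Finset.prod_range_succ] at hN
  omega

open Cfsg.Agent.H621.Zer Matrix Cfsg.Agent.LieClassical.OmegaReindex Cfsg.Agent.H695.ESeven in
theorem nine_minus {F : Type} [Field F] [Fintype F] [CharP F 2] (a b : F)
    (hab : ∀ z₁ z₂ : F, z₁ ^ 2 + a * z₁ * z₂ + b * z₂ ^ 2 = 0 → z₁ = 0 ∧ z₂ = 0) :
    ∃ g : Fin 9 → Cfsg.POmega F (Cfsg.quadFormMinus 3 F a b), (∀ i, 2 ∣ orderOf (g i)) ∧
      ∀ i j, IsConj (g i) (g j) → i = j := by
  have key := exists_nine (Q := quadMinus 3 F a b)
    ⟨thetaMinus F 0, thetaMinus_injective 0, fun y => by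
      have h : quadMinus (0 + 3) F a b (thetaMinus F 0 y) = q7 y := by rw [coe_quadMinus, thetaMinus_q]
      rw [show (quadMinus 3 F a b) = quadMinus (0 + 3) F a b from rfl, h, q7, qq, pow_two]⟩
    (quadMinus_nondegenerate hab) (by simp only [Fintype.card_sum, Fintype.card_fin]; omega)
    (quadMinus_isotropic (by omega) a b)
  rwa [coe_quadMinus] at key

theorem nonConj_image {S : Type} [Group S] [DecidableEq S] {g : Fin 9 → S} (hgc : ∀ i j, IsConj (g i) (g j) → i = j) :
    NonConj (Finset.univ.image g) := by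
  intro x hx y hy hxy
  obtain ⟨i, -, rfl⟩ := Finset.mem_image.1 hx
  obtain ⟨j, -, rfl⟩ := Finset.mem_image.1 hy
  rw [hgc i j hxy]

theorem card_image {S : Type} [Group S] [DecidableEq S] {g : Fin 9 → S} (hgc : ∀ i j, IsConj (g i) (g j) → i = j) :
    (Finset.univ.image g).card = 9 := by
  rw [Finset.card_image_of_injective _ fun i j h => hgc i j (by rw [h]), Finset.card_univ, Fintype.card_fin]

/-- the automizer of a Sylow subgroup of order 17 -/
theorem eIdx_eq {S : Type} [Group S] [Finite S] (hcard : Nat.card S = 197406720) {x : S} (hx : orderOf x = 17)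
    (hA : CC (zpowers x)) : eIdx (zpowers x) = 4 := by
  have : Fact (Nat.Prime 17) := ⟨by norm_num⟩
  have hfac : (Nat.card S).factorization 17 = 1 := by
    rw [hcard, show (197406720 : ℕ) = 17 ^ 1 * 11612160 by norm_num]
    exact Cfsg.Agent.H713.Two.OTwo.fac_of (by norm_num) (by norm_num)
  let P : Sylow 17 S := Sylow.ofCard (zpowers x) (by rw [Nat.card_zpowers, hx, hfac, pow_one])
  have h1 := card_sylow_modEq_one 17 S
  have h2 : Nat.card (Sylow 17 S) = (normalizer (zpowers x : Set S)).index := P.card_eq_index_normalizer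
  have h3 := (normalizer (zpowers x : Set S)).card_mul_index
  rw [← eIdx_mul, Nat.card_zpowers, hx, hcard, ← h2] at h3
  have h4 := hA.dvd
  rw [Nat.card_zpowers, hx] at h4
  have h5 : eIdx (zpowers x) ∈ Nat.divisors 16 := Nat.mem_divisors.2 ⟨h4, by norm_num⟩
  rw [show Nat.divisors 16 = {1, 2, 4, 8, 16} by decide +kernel] at h5
  simp only [Finset.mem_insert, Finset.mem_singleton] at h5
  have h6 : Nat.card (Sylow 17 S) % 17 = 1 := h1
  rcases h5 with h | h | h | h | h
  · rw [h] at h3; omega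
  · rw [h] at h3; omega
  · exact h
  · rw [h] at h3; omega
  · rw [h] at h3; omega

theorem two_minus {S : Type} [Group S] [Finite S] (hcard : Nat.card S = 197406720) (g : Fin 9 → S)
    (hg : ∀ i, 2 ∣ orderOf (g i)) (hgc : ∀ i j, IsConj (g i) (g j) → i = j)
    (hcent : ∀ x : S, orderOf x = 17 → Nat.card (centralizer ({x} : Set S)) ≤ 17) : Two S := by
  classical
  have : Fact (Nat.Prime 17) := ⟨by norm_num⟩
  obtain ⟨x, hx⟩ := exists_prime_orderOf_dvd_card' (G := S) 17 (by rw [hcard]; norm_num)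
  have hc : Nat.card (centralizer ({x} : Set S)) = 17 := by
    refine le_antisymm (hcent x hx) ?_
    have h1 : zpowers x ≤ centralizer ({x} : Set S) := by
      rw [zpowers_le, mem_centralizer_singleton_iff]
    have h2 := Nat.le_of_dvd Nat.card_pos (card_dvd_of_le h1)
    rwa [Nat.card_zpowers, hx] at h2
  have hA := cc_of_prime (by norm_num) hx hc
  have he := eIdx_eq hcard hx hA
  have hem : Nat.card (zpowers x) = eIdx (zpowers x) * 4 + 1 := by rw [he, Nat.card_zpowers, hx]
  have h1 := m_add_card_le hA hem (Finset.univ.image g) (nonConj_image hgc) (by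
    intro y hy a ha ha1 hya
    obtain ⟨i, -, rfl⟩ := Finset.mem_image.1 hy
    obtain ⟨c, hc⟩ := isConj_iff.1 hya
    have h2 : orderOf (g i) = orderOf a := by
      rw [← hc]
      exact ((MulAut.conj c).orderOf_eq _).symm
    have h3 : orderOf a ∣ 17 := by
      have := orderOf_dvd_natCard (⟨a, ha⟩ : zpowers x)
      rwa [Subgroup.orderOf_mk, Nat.card_zpowers, hx] at this
    have h4 := (hg i).trans (h2 ▸ h3)
    omega)
  rw [card_image hgc] at h1
  exact two_of_ti (m := 4) hA he (by norm_num) (by rw [Nat.card_zpowers, hx]) h1 (by norm_num)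

/-- **`Ω₈⁻(2)`** -/
theorem row1_ominus_two {F : Type} [Field F] [Fintype F] (hF : Fintype.card F = 2) (a b : F)
    (hab : ∀ z₁ z₂ : F, z₁ ^ 2 + a * z₁ * z₂ + b * z₂ ^ 2 = 0 → z₁ = 0 ∧ z₂ = 0) :
    Row1 (Cfsg.POmega F (Cfsg.quadFormMinus 3 F a b)) := by
  classical
  have : CharP F 2 := by
    have h2 : (2 : F) = 0 := by
      have := Nat.cast_card_eq_zero (R := F)
      rw [hF] at this
      exact_mod_cast this
    exact CharTwo.of_one_ne_zero_of_two_eq_zero one_ne_zero h2
  obtain ⟨g, hg, hgc⟩ := nine_minus a b hab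
  have hcard := card_ominus_two hF a b hab
  have hC := Cfsg.Agent.H76.Num.minusCount hab 3 (by omega)
  have hG := Cfsg.Agent.H76.Num.good_minusForm hab 3 (by omega)
  have hcent : ∀ x : Cfsg.POmega F (Cfsg.quadFormMinus 3 F a b), orderOf x = 17 →
      Nat.card (centralizer ({x} : Set _)) ≤ 17 := by
    rw [← coe_minusForm]
    intro x hx
    exact cent_le hG hF (by norm_num) (by norm_num) (h17 hF) (he17 hF) (by rw [hC.finrank]; norm_num)
      (fun y hy => (E_cent_one (s := 2 ^ 4) hG hy (by rw [hC.finrank]; omega) (by rw [hF]; norm_num)).trans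
        (by norm_num)) hx
  have hfin : Finite (Cfsg.POmega F (Cfsg.quadFormMinus 3 F a b)) := Nat.finite_of_card_ne_zero (by rw [hcard]; norm_num)
  exact Or.inl (two_minus hcard g hg hgc hcent)

end Cfsg.Agent.H713.Two.OTwo
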