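import Cfsg.Agent.H713.Two.OMinusEight
import Cfsg.Agent.H397.Rk.Chars
import Cfsg.Agent.S0293
import Cfsg.Agent.S0296

/-!
# `Ω₁₀⁺(2)` : two characters with three zeros (helper713, for S4897)
-/

set_option autoImplicit false

namespace Cfsg.Agent.H713.Two.OTwo

open Module Subgroup QuadraticMap Cfsg
open Cfsg.Agent.LieClassical.OrthCore Cfsg.Agent.LieClassical.OrthTrans Cfsg.Agent.LieClassical.OrthForms
open Cfsg.Agent.H409.Cyc Cfsg.Agent.H504.ZeroTI Cfsg.Agent.H504.Zeros Cfsg.Agent.H504.TwoZ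
open Cfsg.Agent.H713.Count Cfsg.Agent.H713.Two.Half

theorem card_oplus_two {F : Type} [Field F] [Fintype F] (hF : Fintype.card F = 2) :
    Nat.card (Cfsg.POmega F (Cfsg.quadFormPlus 5 F)) = 23499295948800 := by
  have hN := Cfsg.Agent.S0293.result hF 5 (by norm_num)
  norm_num [Finset.prod_range_succ] at hN
  omega

open Cfsg.Agent.H621.Zer Matrix Cfsg.Agent.LieClassical.OmegaReindex Cfsg.Agent.H695.ESeven in
theorem nine_plus {F : Type} [Field F] [Fintype F] [CharP F 2] :
    ∃ g : Fin 9 → Cfsg.POmega F (Cfsg.quadFormPlus 5 F), (∀ i, 2 ∣ orderOf (g i)) ∧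
      ∀ i j, IsConj (g i) (g j) → i = j := by
  have key := exists_nine (Q := quadPlus 5 F)
    ⟨thetaPlus F 1, thetaPlus_injective 1, fun y => by
      have h : quadPlus (1 + 4) F (thetaPlus F 1 y) = q7 y := by rw [coe_quadPlus, thetaPlus_q]
      rw [show (quadPlus 5 F) = quadPlus (1 + 4) F from rfl, h, q7, qq, pow_two]⟩
    quadPlus_nondegenerate (by simp only [Fintype.card_sum, Fintype.card_fin]; omega)
    (quadPlus_isotropic (by omega))
  rwa [coe_quadPlus] at key

theorem fac_of' {p n m : ℕ} (hp : p.Prime) (hm : ¬ p ∣ m) : (p ^ n * m).factorization p = n := by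
  rw [Nat.factorization_mul (pow_ne_zero _ hp.ne_zero) (by rintro rfl; exact hm (dvd_zero p)),
    Finsupp.add_apply, Nat.Prime.factorization_pow hp, Finsupp.single_eq_same,
    Nat.factorization_eq_zero_of_not_dvd hm, add_zero]

theorem two_plus {S : Type} [Group S] [Finite S] (hcard : Nat.card S = 23499295948800) (g : Fin 9 → S)
    (hg : ∀ i, 2 ∣ orderOf (g i)) (hgc : ∀ i j, IsConj (g i) (g j) → i = j)
    (hcent : ∀ x : S, orderOf x = 17 → Nat.card (centralizer ({x} : Set S)) ≤ 51)
    (θ ψ : IrrCharacter S) (hθ : (charDegree (θ : S → ℂ)).factorization 2 = (Nat.card S).factorization 2)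
    (hψ : charDegree (ψ : S → ℂ) = 340) : Two S := by
  classical
  have h17 : Fact (Nat.Prime 17) := ⟨by norm_num⟩
  have h2 : Fact (Nat.Prime 2) := ⟨by norm_num⟩
  have hfac : (Nat.card S).factorization 17 = 1 := by
    rw [hcard, show (23499295948800 : ℕ) = 17 ^ 1 * 1382311526400 by norm_num]
    exact fac_of (by norm_num) (by norm_num)
  obtain ⟨x, hx⟩ := exists_prime_orderOf_dvd_card' (G := S) 17 (by rw [hcard]; norm_num)
  have hxp : x ^ 17 = 1 := by rw [← hx]; exact pow_orderOf_eq_one x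
  obtain ⟨c, hc⟩ : 17 ∣ Nat.card (centralizer ({x} : Set S)) := by
    have h1 : zpowers x ≤ centralizer ({x} : Set S) := by
      rw [zpowers_le, mem_centralizer_singleton_iff]
    have h2 := card_dvd_of_le h1
    rwa [Nat.card_zpowers, hx] at h2
  have hc3 : c ≤ 3 := by
    have := hcent x hx
    omega
  have hc0 : 0 < c := by
    have : 0 < Nat.card (centralizer ({x} : Set S)) := Nat.card_pos
    omega
  have h1 : (fus (p := 17) x).card * c % 17 = 7 := by
    have h := Cfsg.Agent.H713.card_fus_mul hfac hx hc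
    rw [hcard] at h
    exact h
  have h3 : (fus (p := 17) x).card * (sing 17 x).card = 16 := card_fus_mul_card_sing (p := 17) hxp
  have h5 : (fus (p := 17) x).card ∈ Nat.divisors 16 := Nat.mem_divisors.2 ⟨⟨_, h3.symm⟩, by norm_num⟩
  rw [show Nat.divisors 16 = {1, 2, 4, 8, 16} by decide +kernel] at h5
  simp only [Finset.mem_insert, Finset.mem_singleton] at h5
  have h6 : (fus (p := 17) x).card = 8 ∧ c = 3 := by
    rcases h5 with h | h | h | h | h <;> rw [h] at h1 ⊢ <;> omega
  obtain ⟨h7, rfl⟩ := h6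
  -- a power of `x` not conjugate to `x`
  obtain ⟨k, hk0, hk⟩ : ∃ k : ZMod 17, k ≠ 0 ∧ k ∉ fus (p := 17) x := by
    by_contra hcon
    push Not at hcon
    have h8 : Finset.univ.erase (0 : ZMod 17) ⊆ fus (p := 17) x := fun k hk =>
      hcon k (Finset.mem_erase.1 hk).1
    have h9 := Finset.card_le_card h8
    rw [Finset.card_erase_of_mem (Finset.mem_univ _), Finset.card_univ, ZMod.card, h7] at h9
    omega
  have hxk : ¬ IsConj x (x ^ k.val) := fun h => hk (mem_fus.2 ⟨hk0, h⟩)
  have hxk2 : orderOf (x ^ k.val) = 17 := by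
    rw [orderOf_pow, hx]
    have h8 : Nat.gcd 17 k.val = 1 := by
      rw [← Nat.coprime_iff_gcd_eq_one, Nat.Prime.coprime_iff_not_dvd (by norm_num)]
      intro h
      have h9 := Nat.eq_zero_of_dvd_of_lt h (ZMod.val_lt k)
      exact hk0 ((ZMod.val_eq_zero k).1 h9)
    rw [h8]
  -- an element of order 51
  have h3p : Fact (Nat.Prime 3) := ⟨by norm_num⟩
  obtain ⟨y, hy⟩ := exists_prime_orderOf_dvd_card' (G := centralizer ({x} : Set S)) 3 (by rw [hc]; norm_num)
  have hy3 : orderOf (y : S) = 3 := by rw [Subgroup.orderOf_coe, hy]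
  have hcomm : Commute x (y : S) := ((mem_centralizer_singleton_iff).1 y.2).symm
  have hxy : orderOf (x * y) = 51 := by
    rw [hcomm.orderOf_mul_eq_mul_orderOf_of_coprime (by rw [hx, hy3]; norm_num), hx, hy3]
  have hψ0 : (charDegree (ψ : S → ℂ)).factorization 17 = (Nat.card S).factorization 17 := by
    rw [hψ, hfac, show (340 : ℕ) = 17 ^ 1 * 20 by norm_num]
    exact fac_of (by norm_num) (by norm_num)
  refine ⟨θ, ψ, ?_, ?_, ?_⟩
  · rintro rfl
    rw [hψ, hcard, show (340 : ℕ) = 2 ^ 2 * 85 by norm_num,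
      show (23499295948800 : ℕ) = 2 ^ 20 * 22410675 by norm_num, fac_of' (by norm_num) (by norm_num),
      fac_of' (by norm_num) (by norm_num)] at hθ
    omega
  · have h := le_zc (χ := θ) (nonConj_image hgc) (by
      intro z hz
      obtain ⟨i, -, rfl⟩ := Finset.mem_image.1 hz
      exact Cfsg.Agent.H713.irr_zero_of_singular hθ (hg i))
    rw [card_image hgc] at h
    omega
  · refine three_le_zc (a := x) (b := x ^ k.val) (c := x * y) hxk
      (not_isConj_of_order (by rw [hx, hxy]; norm_num)) (not_isConj_of_order (by rw [hxk2, hxy]; norm_num)) ?_ ?_ ?_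
    · exact Cfsg.Agent.H713.irr_zero_of_singular hψ0 (by rw [hx])
    · exact Cfsg.Agent.H713.irr_zero_of_singular hψ0 (by rw [hxk2])
    · exact Cfsg.Agent.H713.irr_zero_of_singular hψ0 (by rw [hxy]; norm_num)

/-- **`Ω₁₀⁺(2)`** -/
theorem row1_oplus_two {F : Type} [Field F] [Fintype F] (hF : Fintype.card F = 2) :
    Row1 (Cfsg.POmega F (Cfsg.quadFormPlus 5 F)) := by
  classical
  have : CharP F 2 := by
    have h2 : (2 : F) = 0 := by
      have := Nat.cast_card_eq_zero (R := F)
      rw [hF] at this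
      exact_mod_cast this
    exact CharTwo.of_one_ne_zero_of_two_eq_zero one_ne_zero h2
  have h2 : Fact (Nat.Prime 2) := ⟨by norm_num⟩
  obtain ⟨g, hg, hgc⟩ := nine_plus (F := F)
  have hcard := card_oplus_two hF
  have hfr : finrank F (Fin 5 ⊕ Fin 5 → F) = 10 := by
    rw [Module.finrank_fintype_fun_eq_card, Fintype.card_sum, Fintype.card_fin]
  have hG : Good (plusForm 5 F) :=
    Cfsg.Agent.LieClassical.OrthFinite.good_of_finite (nondeg_plusForm 5 F) (by rw [hfr]; norm_num)
  have hcent : ∀ x : Cfsg.POmega F (Cfsg.quadFormPlus 5 F), orderOf x = 17 →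
      Nat.card (centralizer ({x} : Set _)) ≤ 51 := by
    rw [← coe_plusForm]
    intro x hx
    exact cent_le hG hF (by norm_num) (by norm_num) (h17 hF) (he17 hF) (by rw [hfr]; norm_num)
      (fun y hy => (E_cent_two (s := 2 ^ 4) hG hy hfr (by rw [hF]; norm_num)).trans
        (by rw [hF]; norm_num)) hx
  have hfin : Finite (Cfsg.POmega F (Cfsg.quadFormPlus 5 F)) := Nat.finite_of_card_ne_zero (by rw [hcard]; norm_num)
  have hsim : IsSimpleGroup (Cfsg.POmega F (Cfsg.quadFormPlus 5 F)) := Cfsg.Agent.S0296.result (F := F) 5 (by norm_num)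
  have hna : ¬ IsMulCommutative (Cfsg.POmega F (Cfsg.quadFormPlus 5 F)) := by
    intro h
    have h17 : Fact (Nat.Prime 17) := ⟨by norm_num⟩
    obtain ⟨x, hx⟩ := exists_prime_orderOf_dvd_card' (G := Cfsg.POmega F (Cfsg.quadFormPlus 5 F)) 17
      (by rw [hcard]; norm_num)
    have h1 := hcent x hx
    have h3 : centralizer ({x} : Set (Cfsg.POmega F (Cfsg.quadFormPlus 5 F))) = ⊤ := by
      rw [eq_top_iff]
      intro y _
      rw [mem_centralizer_singleton_iff]
      exact h.is_comm.comm y x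
    rw [h3, Nat.card_congr Subgroup.topEquiv.toEquiv, hcard] at h1
    omega
  obtain ⟨θ, hθ, -⟩ := Cfsg.Agent.H761.LieExt.lie_ext hna (p := 2)
    (Or.inr (Or.inr (Or.inr (Or.inr (Or.inl ⟨F, inferInstance, inferInstance, inferInstance, 5, by norm_num,
        ⟨MulEquiv.refl _⟩⟩)))))
  obtain ⟨A, B, hA, hB, -, ψ, hψ⟩ := Cfsg.Agent.H397.Rk.chars_plus (F := F) hF (m := 5) (by norm_num)
  have hB' : B = 340 := by
    norm_num at hB
    omega
  refine Or.inl (two_plus hcard g hg hgc hcent θ ψ ?_ (by rw [hψ, hB']))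
  rw [hθ, Nat.factorization_pow, Finsupp.smul_apply, Nat.Prime.factorization_self Nat.prime_two, smul_eq_mul, mul_one]

end Cfsg.Agent.H713.Two.OTwo
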